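import Mathlib

/-!
Doubly transitive groups have at least `2 |G| / n` derangements unless sharply 2-transitive.
-/

namespace CfsgLib.DerangeTwo

open MulAction Finset

variable {G Ω : Type*} [Group G] [MulAction G Ω] [Fintype Ω] [DecidableEq Ω]

/-- fixed points of an element, as a finset -/
def fx (g : G) : Finset Ω := univ.filter fun x => g • x = x

@[simp] theorem mem_fx {g : G} {x : Ω} : x ∈ (fx g : Finset Ω) ↔ g • x = x := by simp [fx]

theorem fx_conj (u g : G) : (fx (u * g * u⁻¹) : Finset Ω).card = (fx g : Finset Ω).card := by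
  refine (card_bij (fun x _ => u • x) ?_ (fun x _ y _ h => smul_left_cancel u h) ?_).symm
  · intro x hx
    rw [mem_fx] at hx ⊢
    rw [mul_smul, mul_smul, inv_smul_smul, hx]
  · intro y hy
    refine ⟨u⁻¹ • y, ?_, smul_inv_smul u y⟩
    rw [mem_fx] at hy ⊢
    rw [mul_smul, mul_smul] at hy
    exact smul_left_cancel u (hy.trans (smul_inv_smul u y).symm)

/-- the pointwise stabiliser of two points -/
def pairStab (a b : Ω) : Subgroup G := stabilizer G a ⊓ stabilizer G b

theorem mem_pairStab {a b : Ω} {g : G} : g ∈ pairStab a b ↔ g • a = a ∧ g • b = b := Iff.rfl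

variable (h2 : ∀ a b c d : Ω, a ≠ b → c ≠ d → ∃ g : G, g • a = c ∧ g • b = d)

include h2

theorem exists_pair_equiv {a b x y : Ω} (hab : a ≠ b) (hxy : x ≠ y) :
    ∃ u : G, ∃ e : (pairStab a b : Subgroup G) ≃ (pairStab x y : Subgroup G), ∀ g, (e g : G) = u * g * u⁻¹ := by
  obtain ⟨u, hua, hub⟩ := h2 a b x y hab hxy
  refine ⟨u, ⟨fun g => ⟨u * g * u⁻¹, ?_, ?_⟩, fun g => ⟨u⁻¹ * g * u, ?_, ?_⟩, fun g => ?_, fun g => ?_⟩, fun g => rfl⟩
  · show (u * g * u⁻¹ : G) • x = x
    rw [← hua, mul_smul, mul_smul, inv_smul_smul, (mem_pairStab.1 g.2).1]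
  · show (u * g * u⁻¹ : G) • y = y
    rw [← hub, mul_smul, mul_smul, inv_smul_smul, (mem_pairStab.1 g.2).2]
  · show (u⁻¹ * g * u : G) • a = a
    rw [mul_smul, mul_smul, hua, (mem_pairStab.1 g.2).1, ← hua, inv_smul_smul]
  · show (u⁻¹ * g * u : G) • b = b
    rw [mul_smul, mul_smul, hub, (mem_pairStab.1 g.2).2, ← hub, inv_smul_smul]
  · refine Subtype.ext ?_
    show u⁻¹ * (u * g * u⁻¹) * u = g
    group
  · refine Subtype.ext ?_
    show u * (u⁻¹ * g * u) * u⁻¹ = g
    group

theorem card_pairStab {a b x y : Ω} (hab : a ≠ b) (hxy : x ≠ y) :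
    Nat.card (pairStab a b : Subgroup G) = Nat.card (pairStab x y : Subgroup G) := by
  obtain ⟨u, e, -⟩ := exists_pair_equiv h2 hab hxy
  exact Nat.card_congr e

theorem comm_of_comm {a b x y : Ω} (hab : a ≠ b) (hxy : x ≠ y)
    (hc : ∀ g ∈ (pairStab a b : Subgroup G), ∀ h ∈ (pairStab a b : Subgroup G), Commute g h) :
    ∀ g ∈ (pairStab x y : Subgroup G), ∀ h ∈ (pairStab x y : Subgroup G), Commute g h := by
  intro g hg h hh
  obtain ⟨u, e, he⟩ := exists_pair_equiv h2 hab hxy
  obtain ⟨g', hg'⟩ := e.surjective ⟨g, hg⟩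
  obtain ⟨h', hh'⟩ := e.surjective ⟨h, hh⟩
  have e1 : g = u * g' * u⁻¹ := by rw [← he, hg']
  have e2 : h = u * h' * u⁻¹ := by rw [← he, hh']
  have h3 : (g' : G) * h' = h' * g' := hc g' g'.2 h' h'.2
  show g * h = h * g
  rw [e1, e2, show u * (g' : G) * u⁻¹ * (u * h' * u⁻¹) = u * ((g' : G) * h') * u⁻¹ by group, h3]
  group

variable [Fintype G] [FaithfulSMul G Ω]

theorem card_group {a b : Ω} (hab : a ≠ b) :
    Fintype.card G = Fintype.card Ω * (Fintype.card Ω - 1) * Nat.card (pairStab a b : Subgroup G) := by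
  classical
  have hst : stabilizer G ((a, b) : Ω × Ω) = pairStab a b := by
    ext g; simp [mem_pairStab, Prod.ext_iff]
  have hor : orbit G ((a, b) : Ω × Ω) = ↑((univ : Finset Ω).offDiag) := by
    ext ⟨x, y⟩
    simp only [mem_coe, mem_offDiag, mem_univ, true_and]
    constructor
    · rintro ⟨g, hg⟩ rfl
      exact hab (smul_left_cancel g ((congrArg Prod.fst hg).trans (congrArg Prod.snd hg).symm))
    · intro hxy
      obtain ⟨g, h1, h2'⟩ := h2 a b x y hab hxy
      exact ⟨g, Prod.ext h1 h2'⟩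
  rw [← Nat.card_eq_fintype_card, ← Nat.card_congr (orbitProdStabilizerEquivGroup G ((a, b) : Ω × Ω)),
    Nat.card_prod, hst, hor, Nat.card_coe_set_eq, Set.ncard_coe_finset, offDiag_card, card_univ,
    Nat.mul_sub_one]

theorem sum_pairs (φ : G → ℚ) (hφ : ∀ u g, φ (u * g * u⁻¹) = φ g) {a b : Ω} (hab : a ≠ b)
    [Fintype (pairStab a b : Subgroup G)] :
    ∑ g : G, ((fx g : Finset Ω).card * ((fx g : Finset Ω).card - 1) : ℚ) * φ g =
      (Fintype.card Ω * (Fintype.card Ω - 1) : ℚ) * ∑ g : (pairStab a b : Subgroup G), φ g := by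
  classical
  have h1 : ∀ g : G, ((fx g : Finset Ω).card * ((fx g : Finset Ω).card - 1) : ℚ) * φ g =
      ∑ p ∈ (univ : Finset Ω).offDiag, if g • p.1 = p.1 ∧ g • p.2 = p.2 then φ g else 0 := by
    intro g
    rw [← sum_filter, sum_const, nsmul_eq_mul]
    congr 1
    have : ((univ : Finset Ω).offDiag.filter fun p => g • p.1 = p.1 ∧ g • p.2 = p.2) = (fx g).offDiag := by
      ext p; simp [mem_offDiag]; tauto
    rw [this, offDiag_card, Nat.cast_sub (Nat.le_mul_self _), Nat.cast_mul]
    ring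
  rw [sum_congr rfl (fun g _ => h1 g), sum_comm, sum_congr rfl (g := fun _ => ∑ g : (pairStab a b : Subgroup G), φ g),
    sum_const, offDiag_card, card_univ, nsmul_eq_mul, Nat.cast_sub (Nat.le_mul_self _), Nat.cast_mul]
  · ring
  · rintro ⟨x, y⟩ hxy
    have hxy' : x ≠ y := (mem_offDiag.1 hxy).2.2
    obtain ⟨u, e, he⟩ := exists_pair_equiv h2 hab hxy'
    rw [← sum_filter]
    rw [sum_subtype (univ.filter fun g : G => g • x = x ∧ g • y = y) (p := fun g => g ∈ (pairStab x y : Subgroup G))
      (fun g => by simp [mem_pairStab]) φ]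
    exact (Fintype.sum_equiv e _ _ fun g => by rw [he, hφ]).symm

/-- no element moves at most three points -/
theorem no_small_support (hn : 7 ≤ Fintype.card Ω) {a b : Ω} (hab : a ≠ b)
    (horb : ∀ x : Ω, Nat.card (orbit (pairStab a b : Subgroup G) x) ≤ 3)
    {c : G} (hc : c ≠ 1) (hsupp : (fx c : Finset Ω).card + 3 ≥ Fintype.card Ω) : False := by
  classical
  set R := (MulAction.toPermHom G Ω).range with hR
  have hinj : Function.Injective (MulAction.toPermHom G Ω) := toPerm_injective
  have hR2 : IsMultiplyPretransitive R Ω 2 := is_two_pretransitive_iff.2 fun {w x y z} hwx hyz => by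
    obtain ⟨g, h1, h3⟩ := h2 w x y z hwx hyz
    exact ⟨⟨_, g, rfl⟩, h1, h3⟩
  have hRp : IsPreprimitive R Ω := isPreprimitive_of_is_two_pretransitive hR2
  set σ := MulAction.toPermHom G Ω c with hσ
  have hσR : σ ∈ R := ⟨c, rfl⟩
  have hσ1 : σ ≠ 1 := fun h => hc (hinj (h.trans (map_one _).symm))
  have hcard : σ.support.card ≤ 3 := by
    have hs : σ.support = (fx c)ᶜ := by ext x; simp [hσ]
    rw [hs, card_compl]; omega
  have halt : alternatingGroup Ω ≤ R := by
    have h1 : σ.support.card ≠ 1 := Equiv.Perm.card_support_ne_one σ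
    have h0 : σ.support.card ≠ 0 := by
      rw [Ne, Finset.card_eq_zero, Equiv.Perm.support_eq_empty_iff]; exact hσ1
    rcases (show σ.support.card = 2 ∨ σ.support.card = 3 by omega) with h | h
    · rw [Equiv.Perm.subgroup_eq_top_of_isPreprimitive_of_isSwap_mem hRp σ (Equiv.Perm.card_support_eq_two.1 h) hσR]
      exact le_top
    · exact Equiv.Perm.alternatingGroup_le_of_isPreprimitive_of_isThreeCycle_mem hRp
        (card_support_eq_three_iff.1 h) hσR
  obtain ⟨x, hx⟩ : ∃ x, x ∉ ({a, b} : Finset Ω) :=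
    exists_mem_notMem_of_card_lt_card (t := univ) (card_le_two.trans_lt (by rw [card_univ]; omega)) |>.imp fun _ h => h.2
  have hall : ∀ y, y ∉ ({a, b} : Finset Ω) → y ∈ orbit (pairStab a b : Subgroup G) x := by
    intro y hy
    by_cases hyx : y = x
    · rw [hyx]; exact mem_orbit_self x
    obtain ⟨z, -, hz⟩ := exists_mem_notMem_of_card_lt_card (s := ({a, b, x, y} : Finset Ω)) (t := univ)
      (card_le_four.trans_lt (by rw [card_univ]; omega))
    simp only [mem_insert, mem_singleton, not_or] at hx hy hz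
    have hmem : Equiv.swap x y * Equiv.swap x z ∈ alternatingGroup Ω :=
      (Equiv.Perm.isThreeCycle_swap_mul_swap_same (Ne.symm hyx) (Ne.symm hz.2.2.1) (Ne.symm hz.2.2.2)).mem_alternatingGroup
    obtain ⟨g, hg⟩ := halt hmem
    have hg' : ∀ w, g • w = Equiv.swap x y (Equiv.swap x z w) := fun w => by
      rw [← Equiv.Perm.mul_apply, ← hg]; rfl
    have hga : g • a = a := by
      rw [hg', Equiv.swap_apply_of_ne_of_ne (Ne.symm hx.1) (Ne.symm hz.1),
        Equiv.swap_apply_of_ne_of_ne (Ne.symm hx.1) (Ne.symm hy.1)]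
    have hgb : g • b = b := by
      rw [hg', Equiv.swap_apply_of_ne_of_ne (Ne.symm hx.2) (Ne.symm hz.2.1),
        Equiv.swap_apply_of_ne_of_ne (Ne.symm hx.2) (Ne.symm hy.2)]
    refine ⟨(⟨g, hga, hgb⟩ : (pairStab a b : Subgroup G))⁻¹, ?_⟩
    show (g⁻¹ : G) • x = y
    rw [inv_smul_eq_iff, hg', Equiv.swap_apply_of_ne_of_ne hyx (Ne.symm hz.2.2.2), Equiv.swap_apply_right]
  have h3 := horb x
  have h4 : (({a, b} : Finset Ω)ᶜ).card ≤ Nat.card (orbit (pairStab a b : Subgroup G) x) := by
    rw [Nat.card_coe_set_eq, ← Set.ncard_coe_finset]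
    exact Set.ncard_le_ncard (fun y hy => hall y (by rw [mem_coe, mem_compl] at hy; exact hy)) (Set.toFinite _)
  rw [card_compl] at h4
  have := card_le_two (a := a) (b := b)
  omega

omit [Fintype G] in
/-- an element fixing a point has two non-commuting conjugates -/
theorem false_of_conj_commute {g : G} (hg : g ≠ 1) {a : Ω} (ha : g • a = a)
    (hcomm : ∀ u : G, Commute g (u * g * u⁻¹)) : False := by
  refine hg (FaithfulSMul.eq_of_smul_eq_smul (α := Ω) fun x => ?_)
  rw [one_smul]
  by_contra hx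
  have hxa : x ≠ a := fun h => hx (by rw [h, ha])
  obtain ⟨u, hu1, hu2⟩ := h2 x (g • x) a x (Ne.symm hx) hxa.symm
  have h : (u * g * u⁻¹) • a = x := by rw [mul_smul, mul_smul, ← hu1, inv_smul_smul, hu2]
  apply hx
  rw [← h, ← mul_smul, (hcomm u).eq, mul_smul, ha]

/-- two elements whose supports meet in at most one point commute -/
theorem commute_of_overlap (hn : 7 ≤ Fintype.card Ω) {a b : Ω} (hab : a ≠ b)
    (horb : ∀ x : Ω, Nat.card (orbit (pairStab a b : Subgroup G) x) ≤ 3)
    {g h : G} (hgh : ((fx g)ᶜ ∩ (fx h)ᶜ : Finset Ω).card ≤ 1) : Commute g h := by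
  classical
  have hg_inv : ∀ x : Ω, g • x ≠ x → g⁻¹ • x ≠ x := fun x hx h' => hx (inv_smul_eq_iff.1 h').symm
  have hh_inv : ∀ x : Ω, h • x ≠ x → h⁻¹ • x ≠ x := fun x hx h' => hx (inv_smul_eq_iff.1 h').symm
  have hone : ∀ y z : Ω, g • y ≠ y → h • y ≠ y → g • z ≠ z → h • z ≠ z → y = z := fun y z h1 h2' h3 h4 =>
    card_le_one.1 hgh y (by simp [h1, h2']) z (by simp [h3, h4])
  by_contra hnc
  have hnc' : g * h * g⁻¹ * h⁻¹ ≠ 1 := fun e => hnc (by
    rw [mul_inv_eq_one, mul_inv_eq_iff_eq_mul] at e; exact e)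
  by_cases hov : ∃ y : Ω, g • y ≠ y ∧ h • y ≠ y
  · obtain ⟨y, hgy, hhy⟩ := hov
    refine no_small_support h2 hn hab horb hnc' ?_
    have hsub : (fx (g * h * g⁻¹ * h⁻¹))ᶜ ⊆ ({y, g • y, h • y} : Finset Ω) := by
      intro x hx
      simp only [mem_compl, mem_fx, mem_insert, mem_singleton] at hx ⊢
      by_contra hne
      push Not at hne
      obtain ⟨hxy, hxg, hxh⟩ := hne
      apply hx
      simp only [mul_smul]
      by_cases h1 : g • x = x
      · by_cases h3 : h • x = x
        · rw [inv_smul_eq_iff.2 h3.symm, inv_smul_eq_iff.2 h1.symm, h3, h1]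
        · have h4 : g • (h⁻¹ • x) = h⁻¹ • x := by
            by_contra h5
            refine hxh (inv_smul_eq_iff.1 (hone (h⁻¹ • x) y h5 ?_ hgy hhy))
            rw [smul_inv_smul]; exact (hh_inv x h3).symm
          rw [inv_smul_eq_iff.2 h4.symm, smul_inv_smul, h1]
      · have h3 : h • x = x := by
          by_contra h3
          exact hxy (hone x y h1 h3 hgy hhy)
        rw [inv_smul_eq_iff.2 h3.symm]
        have h4 : h • (g⁻¹ • x) = g⁻¹ • x := by
          by_contra h5
          refine hxg (inv_smul_eq_iff.1 (hone (g⁻¹ • x) y ?_ h5 hgy hhy))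
          rw [smul_inv_smul]; exact (hg_inv x h1).symm
        rw [h4, smul_inv_smul]
    have := (card_le_card hsub).trans card_le_three
    rw [card_compl] at this
    omega
  · push Not at hov
    refine hnc (FaithfulSMul.eq_of_smul_eq_smul (α := Ω) fun x => ?_)
    rw [mul_smul, mul_smul]
    by_cases h1 : g • x = x
    · rw [h1]
      by_cases h3 : h • x = x
      · rw [h3, h1]
      · by_contra h4
        have h5 : g • (h • x) ≠ h • x := h4
        exact h3 (smul_left_cancel h (hov _ h5))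
    · have h3 := hov x h1
      rw [h3]
      exact (hov (g • x) fun h4 => h1 (smul_left_cancel g h4)).symm

/-- The points fixed by the stabiliser of two points. -/
noncomputable def line (x y : Ω) : Finset Ω :=
  open Classical in univ.filter fun z => ∀ g ∈ (pairStab x y : Subgroup G), g • z = z

omit h2 [FaithfulSMul G Ω] in
theorem mem_line {x y z : Ω} : z ∈ line (G := G) x y ↔ ∀ g ∈ (pairStab x y : Subgroup G), g • z = z := by
  simp [line]

theorem pairStab_eq_of_mem_line {x y z w : Ω} (hxy : x ≠ y) (hzw : z ≠ w)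
    (hz : z ∈ line (G := G) x y) (hw : w ∈ line (G := G) x y) :
    (pairStab z w : Subgroup G) = pairStab x y := by
  refine (Subgroup.eq_of_le_of_card_ge (fun g hg => mem_pairStab.2 ⟨mem_line.1 hz g hg, mem_line.1 hw g hg⟩) ?_).symm
  rw [card_pairStab h2 hxy hzw]

omit h2 [FaithfulSMul G Ω] in
theorem left_mem_line (x y : Ω) : x ∈ line (G := G) x y := mem_line.2 fun _ hg => (mem_pairStab.1 hg).1

omit h2 [FaithfulSMul G Ω] in
theorem right_mem_line (x y : Ω) : y ∈ line (G := G) x y := mem_line.2 fun _ hg => (mem_pairStab.1 hg).2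

theorem line_eq {x y z w : Ω} (hxy : x ≠ y) (hzw : z ≠ w)
    (hz : z ∈ line (G := G) x y) (hw : w ∈ line (G := G) x y) :
    line (G := G) z w = line (G := G) x y := by
  ext v
  rw [mem_line, mem_line, pairStab_eq_of_mem_line h2 hxy hzw hz hw]

theorem card_line {a b x y : Ω} (hab : a ≠ b) (hxy : x ≠ y) :
    (line (G := G) x y).card = (line (G := G) a b).card := by
  obtain ⟨u, e, he⟩ := exists_pair_equiv h2 hab hxy
  refine (card_bij (fun z _ => u • z) ?_ (fun z _ w _ h => smul_left_cancel u h) ?_).symm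
  · intro z hz
    refine mem_line.2 fun g hg => ?_
    obtain ⟨g', hg'⟩ := e.surjective ⟨g, hg⟩
    have h := he g'
    rw [hg'] at h
    have e1 : g = u * g' * u⁻¹ := h
    rw [e1, mul_smul, mul_smul, inv_smul_smul, mem_line.1 hz g' g'.2]
  · intro w hw
    refine ⟨u⁻¹ • w, mem_line.2 fun g hg => ?_, smul_inv_smul u w⟩
    have h1 := mem_line.1 hw _ (e ⟨g, hg⟩).2
    rw [he, mul_smul, mul_smul, smul_eq_iff_eq_inv_smul u] at h1
    exact h1

/-- disjoint lines from an outside point to a fixed set -/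
theorem biUnion_lines_card {a b : Ω} (hab : a ≠ b) {g : G} {w : Ω} (hw : w ∉ (fx g : Finset Ω)) :
    ((fx g).biUnion fun z => (line (G := G) w z).erase w).card =
      (fx g : Finset Ω).card * ((line (G := G) a b).card - 1) := by
  have hne : ∀ z ∈ (fx g : Finset Ω), w ≠ z := fun z hz h => hw (h ▸ hz)
  refine (card_biUnion ?_).trans ?_
  swap
  rw [sum_congr rfl (g := fun _ => (line (G := G) a b).card - 1), sum_const, smul_eq_mul]
  · intro z hz
    rw [card_erase_of_mem (left_mem_line w z), card_line h2 hab (hne z hz)]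
  · intro z hz z' hz' hzz
    refine disjoint_left.2 fun v hv hv' => ?_
    rw [mem_erase] at hv hv'
    have e1 := line_eq h2 (hne z hz) hv.1.symm (left_mem_line w z) hv.2
    have e2 := line_eq h2 (hne z' hz') hv.1.symm (left_mem_line w z') hv'.2
    have hz'mem : z' ∈ line (G := G) w z := by rw [← e1, e2]; exact right_mem_line w z'
    have e3 := line_eq h2 (hne z hz) hzz (right_mem_line w z) hz'mem
    have hwl : w ∈ line (G := G) z z' := by rw [e3]; exact left_mem_line w z
    exact hw (mem_fx.2 (mem_line.1 hwl g ⟨mem_fx.1 hz, mem_fx.1 hz'⟩))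

theorem fx_bound {a b : Ω} (hab : a ≠ b) {g : G} (hg : g ≠ 1) :
    (fx g : Finset Ω).card * ((line (G := G) a b).card - 1) + 1 ≤ Fintype.card Ω := by
  obtain ⟨w, hw⟩ : ∃ w : Ω, w ∉ (fx g : Finset Ω) := by
    by_contra hc
    push Not at hc
    exact hg (FaithfulSMul.eq_of_smul_eq_smul (α := Ω) fun x => by rw [one_smul]; exact mem_fx.1 (hc x))
  rw [← biUnion_lines_card h2 hab hw]
  refine Nat.succ_le_of_lt (lt_of_lt_of_le (card_lt_card (t := univ) ?_) (card_univ).le)
  refine ⟨subset_univ _, fun hsub => ?_⟩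
  obtain ⟨z, -, hz⟩ := mem_biUnion.1 (hsub (mem_univ w))
  exact (mem_erase.1 hz).1 rfl

theorem odd_degree {a b : Ω} (hab : a ≠ b) (ht : (line (G := G) a b).card = 3) : Odd (Fintype.card Ω) := by
  classical
  have h1 := card_eq_sum_card_fiberwise (s := (univ : Finset Ω).erase a) (t := univ.image fun x => line (G := G) a x)
    (f := fun x => line (G := G) a x) (fun x _ => mem_image_of_mem _ (mem_univ x))
  have h2' : ∀ l ∈ univ.image (fun x => line (G := G) a x),
      2 ∣ (((univ : Finset Ω).erase a).filter fun x => line (G := G) a x = l).card := by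
    intro l _
    by_cases hne : (((univ : Finset Ω).erase a).filter fun x => line (G := G) a x = l).Nonempty
    · obtain ⟨x, hx⟩ := hne
      rw [mem_filter, mem_erase] at hx
      have : (((univ : Finset Ω).erase a).filter fun z => line (G := G) a z = l) = l.erase a := by
        ext z
        simp only [mem_filter, mem_erase, mem_univ, and_true]
        constructor
        · rintro ⟨hz, rfl⟩; exact ⟨hz, right_mem_line a z⟩
        · rintro ⟨hz, hzl⟩
          refine ⟨hz, ?_⟩
          rw [← hx.2] at hzl ⊢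
          exact line_eq h2 hx.1.1.symm hz.symm (left_mem_line a x) hzl
      rw [this, card_erase_of_mem (hx.2 ▸ left_mem_line a x), ← hx.2, card_line h2 hab hx.1.1.symm, ht]
    · rw [not_nonempty_iff_eq_empty.1 hne]; simp
  have h3 : 2 ∣ ((univ : Finset Ω).erase a).card := h1 ▸ Finset.dvd_sum h2'
  rw [card_erase_of_mem (mem_univ a), card_univ] at h3
  have : 0 < Fintype.card Ω := Fintype.card_pos_iff.2 ⟨a⟩
  exact Nat.odd_iff.2 (by omega)

/-- two different maximal fixed sets share many points -/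
theorem inter_bound {a b : Ω} (hab : a ≠ b) (ht : (line (G := G) a b).card = 3) {g h : G}
    (hg : 2 * (fx g : Finset Ω).card + 1 = Fintype.card Ω) (hh : 2 * (fx h : Finset Ω).card + 1 = Fintype.card Ω) :
    (fx g : Finset Ω).card ≤ 2 * ((fx g : Finset Ω) ∩ fx h).card + 1 := by
  by_cases hsub : (fx g : Finset Ω) ⊆ fx h
  · rw [inter_eq_left.2 hsub]; omega
  obtain ⟨w, hwg, hwh⟩ := not_subset.1 hsub
  have hU : ((fx h).biUnion fun z => (line (G := G) w z).erase w) = (univ : Finset Ω).erase w := by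
    refine eq_of_subset_of_card_le (fun v hv => ?_) ?_
    · obtain ⟨z, -, hz⟩ := mem_biUnion.1 hv
      exact mem_erase.2 ⟨(mem_erase.1 hz).1, mem_univ v⟩
    · rw [biUnion_lines_card h2 hab hwh, card_erase_of_mem (mem_univ w), card_univ, ht]; omega
  have hcov : (fx g : Finset Ω).erase w ⊆ ((fx g : Finset Ω) ∩ fx h).biUnion fun z => (line (G := G) w z).erase w := by
    intro v hv
    rw [mem_erase] at hv
    have hv' : v ∈ (univ : Finset Ω).erase w := mem_erase.2 ⟨hv.1, mem_univ v⟩
    rw [← hU] at hv'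
    obtain ⟨z, hz, hvz⟩ := mem_biUnion.1 hv'
    refine mem_biUnion.2 ⟨z, mem_inter.2 ⟨?_, hz⟩, hvz⟩
    have e := line_eq h2 (show w ≠ z from fun e => hwh (e ▸ hz)) hv.1.symm (left_mem_line w z) (mem_erase.1 hvz).2
    have hzl : z ∈ line (G := G) w v := by rw [e]; exact right_mem_line w z
    exact mem_fx.2 (mem_line.1 hzl g ⟨mem_fx.1 hwg, mem_fx.1 hv.2⟩)
  have h1 := (card_le_card hcov).trans card_biUnion_le
  rw [sum_congr rfl (g := fun _ => 2), sum_const, smul_eq_mul, card_erase_of_mem hwg] at h1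
  · omega
  · intro z hz
    rw [card_erase_of_mem (left_mem_line w z),
      card_line h2 hab (show w ≠ z from fun e => hwh (e ▸ (mem_inter.1 hz).2)), ht]

/-- seven points and a line of size three: the two-point stabiliser is not elementary abelian -/
theorem false_of_seven (hn : Fintype.card Ω = 7) {a b : Ω} (hab : a ≠ b) (ht : (line (G := G) a b).card = 3)
    (hk : Nat.card (pairStab a b : Subgroup G) = 2) : False := by
  classical
  haveI : Fact (Nat.Prime 7) := ⟨by norm_num⟩
  have hG : Nat.card G = 84 := by rw [Nat.card_eq_fintype_card, card_group h2 hab, hn, hk]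
  obtain ⟨P⟩ : Nonempty (Sylow 7 G) := inferInstance
  have hP : Nat.card (P : Subgroup G) = 7 := by
    rw [P.card_eq_multiplicity, hG]
    have : (84 : ℕ).factorization 7 = 1 := by
      rw [Nat.factorization_def _ (by norm_num), show (84 : ℕ) = 7 * 12 by norm_num,
        padicValNat.mul (by norm_num) (by norm_num), padicValNat.self (by norm_num),
        padicValNat.eq_zero_of_not_dvd (by norm_num)]
    rw [this, pow_one]
  have hn1 : Nat.card (Sylow 7 G) = 1 := by
    have h1 := card_sylow_modEq_one 7 G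
    have h3 := Sylow.card_dvd_index P
    have h4 : (P : Subgroup G).index = 12 := by
      have := Subgroup.card_mul_index (P : Subgroup G)
      rw [hP, hG] at this; omega
    rw [h4] at h3
    have h5 := Nat.le_of_dvd (by norm_num) h3
    revert h1 h3
    generalize Nat.card (Sylow 7 G) = s at h5 ⊢
    intro h1 h3
    interval_cases s <;> simp_all (config := { decide := true }) [Nat.ModEq]
  haveI : Subsingleton (Sylow 7 G) := (Nat.card_eq_one_iff_unique.1 hn1).1
  haveI hPn : (P : Subgroup G).Normal := P.normal_of_subsingleton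
  obtain ⟨g, hg, hg1⟩ := (pairStab a b : Subgroup G).bot_or_exists_ne_one.resolve_left (fun e => by
    rw [e, Subgroup.card_bot] at hk; omega)
  obtain ⟨c, hc⟩ : ∃ c : (P : Subgroup G), c ≠ 1 := by
    haveI : Nontrivial (P : Subgroup G) := Finite.one_lt_card_iff_nontrivial.1 (by rw [hP]; norm_num)
    exact exists_ne 1
  -- `P` is transitive
  have hPtr : ∀ x : Ω, ∃ u ∈ (P : Subgroup G), u • a = x := by
    have horb : orbit (P : Subgroup G) a = Set.univ := by
      by_contra hne
      have hdiv := Subgroup.card_subgroup_dvd_card (stabilizer (P : Subgroup G) a)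
      rw [hP] at hdiv
      rcases (Nat.dvd_prime (by norm_num)).1 hdiv with h | h
      · apply hne
        have := Nat.card_congr (orbitProdStabilizerEquivGroup (P : Subgroup G) a)
        rw [Nat.card_prod, h, mul_one, hP, Nat.card_coe_set_eq] at this
        exact Set.eq_of_subset_of_ncard_le (Set.subset_univ _)
          (by rw [this, Set.ncard_univ, Nat.card_eq_fintype_card, hn]) (Set.toFinite _)
      · have hfix : (c : G) • a = a := by
          have htop : stabilizer (P : Subgroup G) a = ⊤ := Subgroup.eq_top_of_card_eq _ (h.trans hP.symm)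
          exact (htop.symm ▸ Subgroup.mem_top c : c ∈ stabilizer (P : Subgroup G) a)
        apply hc
        refine Subtype.ext (FaithfulSMul.eq_of_smul_eq_smul (α := Ω) fun x => ?_)
        rw [Subgroup.coe_one, one_smul]
        by_cases hxa : x = a
        · rw [hxa, hfix]
        obtain ⟨u, hu, -⟩ := h2 a b x a hab hxa
        have hm : u⁻¹ * (c : G) * u ∈ (P : Subgroup G) := by simpa using hPn.conj_mem c c.2 u⁻¹
        have htop : stabilizer (P : Subgroup G) a = ⊤ := Subgroup.eq_top_of_card_eq _ (h.trans hP.symm)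
        have h5 : (u⁻¹ * (c : G) * u) • a = a :=
          (htop.symm ▸ Subgroup.mem_top (⟨_, hm⟩ : (P : Subgroup G)) : (⟨_, hm⟩ : (P : Subgroup G)) ∈ stabilizer (P : Subgroup G) a)
        rw [mul_smul, mul_smul, hu, inv_smul_eq_iff, hu] at h5
        exact h5
    intro x
    obtain ⟨u, hu⟩ : x ∈ orbit (P : Subgroup G) a := horb ▸ Set.mem_univ x
    exact ⟨u, u.2, hu⟩
  have hreg : ∀ u ∈ (P : Subgroup G), ∀ v ∈ (P : Subgroup G), u • a = v • a → u = v := by
    intro u hu v hv huv
    have h1 : Function.Bijective (fun w : (P : Subgroup G) => (w : G) • a) :=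
      (Fintype.bijective_iff_surjective_and_card _).2 ⟨fun x => by
        obtain ⟨u, hu, h⟩ := hPtr x; exact ⟨⟨u, hu⟩, h⟩,
        by rw [← Nat.card_eq_fintype_card, hP, hn]⟩
    exact congrArg Subtype.val (h1.1 (a₁ := ⟨u, hu⟩) (a₂ := ⟨v, hv⟩) huv)
  obtain ⟨hga, hgb⟩ := mem_pairStab.1 hg
  obtain ⟨u, hu, hua⟩ := hPtr b
  have hcu : Commute g u := by
    have h1 : g * u * g⁻¹ = u := hreg _ (hPn.conj_mem u hu g) u hu (by
      rw [mul_smul, mul_smul, inv_smul_eq_iff.2 hga.symm, hua, hgb])
    rw [mul_inv_eq_iff_eq_mul] at h1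
    exact h1
  have hzp : Subgroup.zpowers u = (P : Subgroup G) := by
    refine Subgroup.eq_of_le_of_card_ge (Subgroup.zpowers_le.2 hu) ?_
    rw [hP, Nat.card_zpowers]
    have h1 : orderOf u ∣ 7 := hP ▸ Subgroup.orderOf_dvd_natCard _ hu
    rcases (Nat.dvd_prime (by norm_num)).1 h1 with h | h
    · rw [orderOf_eq_one_iff.1 h, one_smul] at hua; exact absurd hua hab
    · omega
  refine hg1 (FaithfulSMul.eq_of_smul_eq_smul (α := Ω) fun x => ?_)
  rw [one_smul]
  obtain ⟨w, hw, rfl⟩ := hPtr x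
  rw [← hzp] at hw
  obtain ⟨j, rfl⟩ := hw
  show g • u ^ j • a = u ^ j • a
  rw [← mul_smul, (hcu.zpow_right j).eq, mul_smul, hga]

end CfsgLib.DerangeTwo
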