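import Cfsg.Agent.DerangeTwo.Basic

/-! The inequality for the two-point stabiliser and the theorem. -/

namespace CfsgLib.DerangeTwo

open MulAction Finset

variable {G Ω : Type*} [Group G] [MulAction G Ω] [Fintype Ω] [DecidableEq Ω] [Fintype G] [FaithfulSMul G Ω]

theorem arith {ι : Type*} (s : Finset ι) (f : ι → ℕ) (n j k : ℕ) (hj : 0 < j)
    (hk : s.card + 1 = k) (hf : ∀ i ∈ s, 0 < f i ∧ 2 * f i + j ≤ n) (hnk : 0 < s.card)
    (hsum : (n : ℤ) - j * k ≤ ∑ i ∈ s, ((n : ℤ) - 2 * f i)) :
    (k : ℚ) ≤ ∑ i ∈ s, ((n : ℚ) - f i) / f i := by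
  obtain ⟨i₀, hi₀⟩ := Finset.card_pos.1 hnk
  have hnj : (0 : ℚ) < (n : ℚ) - j := by
    have := hf i₀ hi₀
    have h1 : j < n := by omega
    have h2 : (j : ℚ) < n := by exact_mod_cast h1
    linarith
  have h1 : ∀ i ∈ s, 1 + 2 * ((n : ℚ) - 2 * f i) / ((n : ℚ) - j) ≤ ((n : ℚ) - f i) / f i := by
    intro i hi
    obtain ⟨hp, hle⟩ := hf i hi
    have hp' : (0 : ℚ) < f i := by exact_mod_cast hp
    have hle' : 2 * (f i : ℚ) + j ≤ n := by exact_mod_cast hle
    have hj' : (0 : ℚ) ≤ j := Nat.cast_nonneg j
    rw [show ((n : ℚ) - f i) / f i = 1 + ((n : ℚ) - 2 * f i) / f i by field_simp; ring]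
    refine add_le_add_right ?_ 1
    rw [div_le_div_iff₀ hnj hp']
    nlinarith
  have h2 : ((j : ℤ) * s.card) ≤ ∑ i ∈ s, ((n : ℤ) - 2 * f i) := by
    rw [mul_comm, ← nsmul_eq_mul, ← Finset.sum_const]
    exact Finset.sum_le_sum fun i hi => by have := (hf i hi).2; omega
  have h3 : ((n : ℚ) - j) ≤ 2 * ∑ i ∈ s, ((n : ℚ) - 2 * f i) := by
    have hk' : (k : ℤ) = s.card + 1 := by exact_mod_cast hk.symm
    have : ((n : ℤ) - j) ≤ 2 * ∑ i ∈ s, ((n : ℤ) - 2 * f i) := by
      rw [hk'] at hsum; linarith
    exact_mod_cast this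
  have h4 := Finset.sum_le_sum h1
  rw [Finset.sum_add_distrib, Finset.sum_const, nsmul_eq_mul, mul_one, ← Finset.sum_div, ← Finset.mul_sum] at h4
  have h5 : (1 : ℚ) ≤ (2 * ∑ i ∈ s, ((n : ℚ) - 2 * f i)) / ((n : ℚ) - j) := by
    rw [le_div_iff₀ hnj, one_mul]; exact h3
  have : (k : ℚ) = s.card + 1 := by exact_mod_cast hk.symm
  linarith

theorem comm_of_mul_self {M : Type*} [Group M] (hM : ∀ z : M, z * z = 1) (g h : M) : g * h = h * g := by
  have e : ∀ z : M, z⁻¹ = z := fun z => inv_eq_of_mul_eq_one_right (hM z)
  rw [← e (g * h), mul_inv_rev, e, e]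

variable (h2 : ∀ a b c d : Ω, a ≠ b → c ≠ d → ∃ g : G, g • a = c ∧ g • b = d)

include h2

/-- the inequality for the stabiliser of two points -/
theorem key (hn : 7 ≤ Fintype.card Ω) {a b : Ω} (hab : a ≠ b) [Fintype (pairStab a b : Subgroup G)]
    (hk : 2 ≤ Fintype.card (pairStab a b : Subgroup G)) :
    (Fintype.card (pairStab a b : Subgroup G) : ℚ) ≤
      ∑ g : (pairStab a b : Subgroup G),
        ((Fintype.card Ω : ℚ) - (fx (g : G) : Finset Ω).card) / (fx (g : G) : Finset Ω).card := by
  classical
  set n := Fintype.card Ω with hn'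
  set k := Fintype.card (pairStab a b : Subgroup G) with hk'
  set t := (line (G := G) a b).card with ht'
  let f : ↥(pairStab a b : Subgroup G) → ℕ := fun g => (fx (g : G) : Finset Ω).card
  set s := (univ : Finset (pairStab a b : Subgroup G)).erase 1 with hs
  have hscard : s.card + 1 = k := by
    rw [hs, card_erase_of_mem (mem_univ _), card_univ]
    omega
  have hf1 : f 1 = n := by
    show (fx ((1 : (pairStab a b : Subgroup G)) : G) : Finset Ω).card = n
    rw [show (fx ((1 : (pairStab a b : Subgroup G)) : G) : Finset Ω) = univ by ext x; simp, card_univ]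
  have hfpos : ∀ g : (pairStab a b : Subgroup G), 0 < f g := fun g => card_pos.2 ⟨a, mem_fx.2 g.2.1⟩
  have hsum : ∑ g : (pairStab a b : Subgroup G), ((n : ℚ) - f g) / f g = ∑ g ∈ s, ((n : ℚ) - f g) / f g := by
    refine (sum_erase univ ?_).symm
    rw [hf1, sub_self, zero_div]
  refine le_of_le_of_eq ?_ hsum.symm
  -- orbits of `(pairStab a b : Subgroup G)`
  let Q := orbitRel.Quotient (pairStab a b : Subgroup G) Ω
  haveI : Fintype Q := Fintype.ofFinite Q
  let sz : Q → ℕ := fun q => (univ.filter fun x : Ω => (Quotient.mk'' x : Q) = q).card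
  have hn_sum : ∑ q : Q, sz q = n := by
    rw [hn', ← card_univ, card_eq_sum_card_fiberwise (t := (univ : Finset Q)) (fun x _ => mem_univ _)]
  have hszpos : ∀ q, 1 ≤ sz q := by
    intro q
    obtain ⟨x, rfl⟩ := Quotient.mk''_surjective q
    exact card_pos.2 ⟨x, by simp⟩
  have hszorb : ∀ x : Ω, sz (Quotient.mk'' x) = Nat.card (orbit (pairStab a b : Subgroup G) x) := by
    intro x
    rw [Nat.card_eq_fintype_card, ← Set.toFinset_card]
    show (univ.filter fun y : Ω => (Quotient.mk'' y : Q) = Quotient.mk'' x).card = _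
    refine congrArg Finset.card ?_
    ext y
    simp only [mem_filter, mem_univ, true_and, Set.mem_toFinset]
    exact Quotient.eq''.trans orbitRel_apply
  have hline : ∀ x : Ω, x ∈ line (G := G) a b ↔ sz (Quotient.mk'' x) = 1 := by
    intro x
    rw [hszorb, Nat.card_eq_one_iff_unique, mem_line]
    constructor
    · intro h
      refine ⟨⟨?_⟩, ⟨⟨x, mem_orbit_self x⟩⟩⟩
      rintro ⟨_, g, rfl⟩ ⟨_, g', rfl⟩
      exact Subtype.ext ((h g g.2).trans (h g' g'.2).symm)
    · rintro ⟨hs1, -⟩ g hg
      exact congrArg Subtype.val (hs1.elim ⟨g • x, ⟨g, hg⟩, rfl⟩ ⟨x, mem_orbit_self x⟩)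
  have ht_sum : ∑ q : Q, (if sz q = 1 then 1 else 0) = t := by
    rw [sum_boole, Nat.cast_id, ht']
    refine (card_bij (fun x _ => (Quotient.mk'' x : Q)) (fun x hx => by simp [(hline x).1 hx]) ?_ ?_).symm
    · intro x hx y hy hxy
      have h1 := (hline x).1 hx
      obtain ⟨z, hz⟩ := card_eq_one.1 h1
      have hxz : x ∈ ({z} : Finset Ω) := hz ▸ (by simp)
      have hyz : y ∈ ({z} : Finset Ω) := hz ▸ (by simp [hxy])
      rw [mem_singleton] at hxz hyz
      rw [hxz, hyz]
    · intro q hq
      obtain ⟨x, rfl⟩ := Quotient.mk''_surjective q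
      simp only [mem_filter, mem_univ, true_and] at hq
      exact ⟨x, (hline x).2 hq, rfl⟩
  set o := Fintype.card Q with ho
  have hburn : ∑ g : (pairStab a b : Subgroup G), f g = k * o := by
    have h := MulAction.sum_card_fixedBy_eq_card_orbits_mul_card_group (pairStab a b : Subgroup G) Ω
    rw [mul_comm, hk', ho, ← h]
    refine sum_congr rfl fun g _ => ?_
    rw [← Set.toFinset_card]
    exact congrArg Finset.card (by ext x; simp [Subgroup.smul_def])
  have hexc : ∀ q, 2 ≤ sz q + (if sz q = 1 then 1 else 0) := fun q => by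
    have := hszpos q
    split_ifs <;> omega
  have hexsum : ∑ q : Q, (sz q + if sz q = 1 then 1 else 0) = n + t := by
    rw [sum_add_distrib, hn_sum, ht_sum]
  have ho_le : 2 * o ≤ n + t := by
    have h := sum_le_sum (s := (univ : Finset Q)) fun q _ => hexc q
    rw [sum_const, card_univ, smul_eq_mul, hexsum] at h
    omega
  have hsz3 : n + t ≤ 2 * o + 1 → ∀ q, sz q ≤ 3 := by
    intro hle q
    have h := sum_le_sum (s := (univ : Finset Q).erase q) fun q _ => hexc q
    rw [sum_const, card_erase_of_mem (mem_univ q), card_univ, smul_eq_mul] at h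
    have h' := add_sum_erase (univ : Finset Q) (fun q => sz q + if sz q = 1 then 1 else 0) (mem_univ q)
    simp only [hexsum] at h'
    have : 1 ≤ o := Fintype.card_pos_iff.2 ⟨q⟩
    split_ifs at h' <;> omega
  have horb3 : n + t ≤ 2 * o + 1 → ∀ x : Ω, Nat.card (orbit (pairStab a b : Subgroup G) x) ≤ 3 := fun hle x => hszorb x ▸ hsz3 hle _
  have hEsum : ∑ g ∈ s, ((n : ℤ) - 2 * f g) = (n : ℤ) - k * (2 * o - n) := by
    have h1 : ∑ g : (pairStab a b : Subgroup G), ((n : ℤ) - 2 * f g) = (k : ℤ) * n - 2 * (k * o) := by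
      rw [sum_sub_distrib, ← mul_sum, sum_const, card_univ, nsmul_eq_mul,
        show ∑ g : (pairStab a b : Subgroup G), (f g : ℤ) = ((∑ g : (pairStab a b : Subgroup G), f g : ℕ) : ℤ) by push_cast; rfl, hburn]
      push_cast
      ring
    rw [← add_sum_erase _ _ (mem_univ (1 : (pairStab a b : Subgroup G))), hf1] at h1
    rw [hs]
    linarith
  have hne : ∀ g ∈ s, (g : G) ≠ 1 := fun g hg h => (mem_erase.1 hg).1 (Subtype.ext h)
  have ht2 : 2 ≤ t := by
    rw [ht', ← card_pair hab]
    refine card_le_card ?_
    intro x hx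
    rcases mem_insert.1 hx with rfl | hx
    · exact left_mem_line _ _
    · rw [mem_singleton.1 hx]; exact right_mem_line _ _
  by_cases ht4 : 4 ≤ t
  · have hb : ∀ g ∈ s, (2 : ℚ) ≤ ((n : ℚ) - f g) / f g := by
      intro g hg
      have h3 : (fx (g : G) : Finset Ω).card * 3 + 1 ≤ n :=
        le_trans (Nat.add_le_add_right (Nat.mul_le_mul_left _ (by omega)) 1) (fx_bound h2 hab (hne g hg))
      have h4 : (f g : ℚ) * 3 + 1 ≤ n := by exact_mod_cast h3
      have hp : (0 : ℚ) < f g := by exact_mod_cast hfpos g
      rw [le_div_iff₀ hp]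
      linarith
    refine le_trans ?_ (sum_le_sum hb)
    rw [sum_const, nsmul_eq_mul]
    have : (k : ℚ) = s.card + 1 := by exact_mod_cast hscard.symm
    have h1 : (1 : ℚ) ≤ s.card := by exact_mod_cast (show 1 ≤ s.card by omega)
    linarith
  by_cases hd0 : 2 * o ≤ n
  · have hb : ∀ g ∈ s, 1 + 2 * ((n : ℚ) - 2 * f g) / n ≤ ((n : ℚ) - f g) / f g := by
      intro g _
      have hp : (0 : ℚ) < f g := by exact_mod_cast hfpos g
      have hn0 : (0 : ℚ) < n := by exact_mod_cast (show 0 < n by omega)
      rw [show ((n : ℚ) - f g) / f g = 1 + ((n : ℚ) - 2 * f g) / f g by field_simp; ring]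
      refine add_le_add_right ?_ 1
      rw [div_le_div_iff₀ hn0 hp]
      nlinarith [sq_nonneg ((n : ℚ) - 2 * f g)]
    have h4 := sum_le_sum hb
    rw [sum_add_distrib, sum_const, nsmul_eq_mul, mul_one, ← sum_div, ← mul_sum] at h4
    have h5 : (n : ℚ) ≤ ∑ g ∈ s, ((n : ℚ) - 2 * f g) := by
      have h6 : (n : ℤ) ≤ ∑ g ∈ s, ((n : ℤ) - 2 * f g) := by
        rw [hEsum]
        have : (2 * (o : ℤ) - n) ≤ 0 := by omega
        nlinarith
      exact_mod_cast h6
    have hn0 : (0 : ℚ) < n := by exact_mod_cast (show 0 < n by omega)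
    have h7 : (2 : ℚ) ≤ 2 * (∑ g ∈ s, ((n : ℚ) - 2 * f g)) / n := by rw [le_div_iff₀ hn0]; linarith
    have : (k : ℚ) = s.card + 1 := by exact_mod_cast hscard.symm
    linarith
  have hspos : 0 < s.card := by omega
  -- elementary abelian case facts
  have helem : n + t ≤ 2 * o → ∀ g : (pairStab a b : Subgroup G), g * g = 1 := by
    intro hle g
    refine Subtype.ext (FaithfulSMul.eq_of_smul_eq_smul (α := Ω) fun x => ?_)
    have hsz2 : sz (Quotient.mk'' x) ≤ 2 := by
      have h := sum_le_sum (s := (univ : Finset Q).erase (Quotient.mk'' x)) fun q _ => hexc q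
      rw [sum_const, card_erase_of_mem (mem_univ _), card_univ, smul_eq_mul] at h
      have h' := add_sum_erase (univ : Finset Q) (fun q => sz q + if sz q = 1 then 1 else 0) (mem_univ (Quotient.mk'' x))
      simp only [hexsum] at h'
      split_ifs at h' <;> omega
    show ((g : G) * g) • x = (1 : G) • x
    rw [one_smul, mul_smul]
    by_contra hne'
    have hx1 : g • x ≠ x := fun h => hne' (by rw [show (g : G) • x = x from h]; exact h)
    have h3 : ({x, g • x, g • g • x} : Finset Ω) ⊆ univ.filter fun y => (Quotient.mk'' y : Q) = Quotient.mk'' x := by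
      intro y hy
      simp only [mem_insert, mem_singleton] at hy
      simp only [mem_filter, mem_univ, true_and]
      apply Quotient.eq''.2
      rw [orbitRel_apply]
      rcases hy with rfl | rfl | rfl
      · exact mem_orbit_self _
      · exact mem_orbit _ _
      · rw [← mul_smul]; exact mem_orbit _ _
    have h4 := card_le_card h3
    rw [card_insert_of_notMem (by simp only [mem_insert, mem_singleton, not_or]; exact ⟨fun e => hx1 e.symm, fun e => hne' e.symm⟩),
      card_pair (fun e => hx1 (smul_left_cancel g e).symm)] at h4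
    have : sz (Quotient.mk'' x) = (univ.filter fun y => (Quotient.mk'' y : Q) = Quotient.mk'' x).card := rfl
    omega
  have hcomm : n + t ≤ 2 * o → ∀ x y : Ω, x ≠ y → ∀ g ∈ (pairStab x y : Subgroup G),
      ∀ h ∈ (pairStab x y : Subgroup G), Commute g h := by
    intro hle x y hxy
    refine comm_of_comm h2 hab hxy fun g hg h hh => ?_
    exact congrArg Subtype.val (comm_of_mul_self (fun z => helem hle z) (⟨g, hg⟩ : (pairStab a b : Subgroup G)) ⟨h, hh⟩)
  have hconj : ∀ (g : G) (u : G), (fx (u * g * u⁻¹) : Finset Ω).card = (fx g : Finset Ω).card := fun g u => fx_conj u g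
  have hshare : n + t ≤ 2 * o → ∀ g h : G, 2 ≤ ((fx g : Finset Ω) ∩ fx h).card → Commute g h := by
    intro hle g h hgh
    obtain ⟨x, hx, y, hy, hxy⟩ := one_lt_card.1 (show 1 < ((fx g : Finset Ω) ∩ fx h).card by omega)
    simp only [mem_inter, mem_fx] at hx hy
    exact hcomm hle x y hxy g ⟨hx.1, hy.1⟩ h ⟨hx.2, hy.2⟩
  rcases (show t = 2 ∨ t = 3 by omega) with h | h
  · -- no point off the pair is fixed
    rcases (show n + t = 2 * o + 1 ∨ n + t = 2 * o by omega) with hd | hd
    · -- an orbit of size three gives a three-cycle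
      exfalso
      obtain ⟨q, hq⟩ : ∃ q, sz q = 3 := by
        by_contra hc
        push Not at hc
        have h' : ∑ q : Q, (sz q + if sz q = 1 then 1 else 0) = ∑ _q : Q, 2 := by
          refine sum_congr rfl fun q _ => ?_
          have := hszpos q
          have := hsz3 (by omega) q
          have := hc q
          split_ifs <;> omega
        rw [hexsum, sum_const, card_univ, smul_eq_mul] at h'
        omega
      haveI : Fact (Nat.Prime 3) := ⟨Nat.prime_three⟩
      obtain ⟨x, rfl⟩ := Quotient.mk''_surjective q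
      rw [hszorb] at hq
      have h3k : 3 ∣ Nat.card (pairStab a b : Subgroup G) := by
        rw [← Nat.card_congr (orbitProdStabilizerEquivGroup (pairStab a b : Subgroup G) x), Nat.card_prod, hq]
        exact dvd_mul_right 3 _
      obtain ⟨g, hg⟩ := exists_prime_orderOf_dvd_card' 3 h3k
      refine no_small_support h2 hn hab (horb3 (by omega)) (c := (g : G)) ?_ ?_
      · intro e
        rw [show g = 1 from Subtype.ext e, orderOf_one] at hg
        omega
      · have hsub : (fx (g : G) : Finset Ω)ᶜ ⊆ (orbit (pairStab a b : Subgroup G) x).toFinset := by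
          intro y hy
          rw [mem_compl, mem_fx] at hy
          rw [Set.mem_toFinset]
          by_contra hyx
          apply hy
          -- the orbit of `y` has at most two points
          have hyq : (Quotient.mk'' y : Q) ≠ Quotient.mk'' x := fun e => hyx (orbitRel_apply.1 (Quotient.eq''.1 e))
          have h2y : Nat.card (orbit (pairStab a b : Subgroup G) y) ≤ 2 := by
            rw [← hszorb]
            have h := sum_le_sum (s := ((univ : Finset Q).erase (Quotient.mk'' x)).erase (Quotient.mk'' y)) fun q _ => hexc q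
            have hmem : (Quotient.mk'' y : Q) ∈ (univ : Finset Q).erase (Quotient.mk'' x) := mem_erase.2 ⟨hyq, mem_univ _⟩
            rw [sum_const, card_erase_of_mem hmem, card_erase_of_mem (mem_univ _), card_univ, smul_eq_mul] at h
            have h' := add_sum_erase (univ : Finset Q) (fun q => sz q + if sz q = 1 then 1 else 0) (mem_univ (Quotient.mk'' x))
            have h'' := add_sum_erase _ (fun q => sz q + if sz q = 1 then 1 else 0) hmem
            simp only [hexsum] at h'
            have e3 : sz (Quotient.mk'' x) = 3 := (hszorb x).trans hq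
            simp only [e3, show (3 : ℕ) ≠ 1 by norm_num, if_false] at h'
            have ho2 : 2 ≤ Fintype.card Q :=
              card_univ (α := Q) ▸ one_lt_card.2 ⟨_, mem_univ _, _, mem_univ _, hyq⟩
            change 2 ≤ o at ho2
            have ho' : Fintype.card (Quotient (orbitRel (pairStab a b : Subgroup G) Ω)) = o := rfl
            by_cases hy1 : sz (Quotient.mk'' y) = 1
            · omega
            · simp only [hy1, if_false] at h''
              omega
          have hg3 : g ^ 3 = 1 := hg ▸ pow_orderOf_eq_one g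
          have hgg : g • g • y = y := by
            rw [Nat.card_eq_fintype_card, ← Set.toFinset_card] at h2y
            by_contra hne'
            have hx1 : g • y ≠ y := fun h => hne' (by rw [h, h])
            have hsub3 : ({y, g • y, g • g • y} : Finset Ω) ⊆ (orbit (pairStab a b : Subgroup G) y).toFinset := by
              intro z hz
              simp only [mem_insert, mem_singleton] at hz
              rw [Set.mem_toFinset]
              rcases hz with rfl | rfl | rfl
              · exact mem_orbit_self _
              · exact mem_orbit _ _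
              · rw [← mul_smul]; exact mem_orbit _ _
            have h4 := card_le_card hsub3
            rw [card_insert_of_notMem (by simp only [mem_insert, mem_singleton, not_or]; exact ⟨fun e => hx1 e.symm, fun e => hne' e.symm⟩),
              card_pair (fun e => hx1 (smul_left_cancel g e).symm)] at h4
            omega
          show g • y = y
          calc g • y = g • g • g • y := by rw [hgg]
            _ = y := by rw [← mul_smul, ← mul_smul, show g * g * g = g ^ 3 by rw [pow_succ, pow_two], hg3, one_smul]
        have h5 := card_le_card hsub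
        rw [card_compl, Set.toFinset_card] at h5
        rw [Nat.card_eq_fintype_card] at hq
        omega
    · -- all other orbits have two points
      have hhalf : ∀ g ∈ s, 2 * f g + 2 ≤ n := by
        intro g hg
        by_contra hbig
        refine false_of_conj_commute h2 (hne g hg) g.2.1 fun u => ?_
        have hc := hconj (g : G) u
        by_cases h2i : 2 ≤ ((fx (g : G) : Finset Ω) ∩ fx (u * g * u⁻¹)).card
        · exact hshare hd.le _ _ h2i
        · refine commute_of_overlap h2 hn hab (horb3 (by omega)) ?_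
          rw [← compl_union, card_compl]
          have hiu := card_union_add_card_inter (fx (g : G) : Finset Ω) (fx (u * g * u⁻¹))
          have heven : Even n := ⟨o - 1, by omega⟩
          obtain ⟨m, hm⟩ := heven
          change ¬ 2 * (fx (g : G) : Finset Ω).card + 2 ≤ n at hbig
          omega
      refine arith s f n 2 k (by norm_num) hscard (fun g hg => ⟨hfpos g, hhalf g hg⟩) hspos ?_
      rw [hEsum]
      have : (2 * (o : ℤ) - n) = 2 := by omega
      rw [this]
      push_cast
      linarith
  · -- the pair fixes a third point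
    obtain ⟨m, hm⟩ := odd_degree h2 hab h
    have hf1' : ∀ g ∈ s, 2 * f g + 1 ≤ n := fun g hg => by
      have h1 : (fx (g : G) : Finset Ω).card * ((line (G := G) a b).card - 1) + 1 ≤ n := fx_bound h2 hab (hne g hg)
      rw [← ht', h] at h1
      show 2 * (fx (g : G) : Finset Ω).card + 1 ≤ n
      omega
    change n = 2 * m + 1 at hm
    rcases (show 2 * o ≤ n + 1 ∨ n + t = 2 * o by omega) with hd | hd
    · refine arith s f n 1 k one_pos hscard (fun g hg => ⟨hfpos g, hf1' g hg⟩) hspos ?_
      rw [hEsum]
      have h1 : (2 * (o : ℤ) - n) ≤ 1 := by omega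
      have hk0 : (0 : ℤ) ≤ k := Nat.cast_nonneg k
      push_cast
      nlinarith
    · by_cases hn7 : n = 7
      · exfalso
        have hmove : ∀ g : (pairStab a b : Subgroup G), g ≠ 1 → (fx (g : G) : Finset Ω) = line (G := G) a b := by
          intro g hg
          refine (eq_of_subset_of_card_le (fun x hx => mem_fx.2 (mem_line.1 hx (g : G) g.2)) ?_).symm
          have h1 : 2 * (fx (g : G) : Finset Ω).card + 1 ≤ n := hf1' g (mem_erase.2 ⟨hg, mem_univ g⟩)
          omega
        refine false_of_seven h2 hn7 hab h ?_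
        obtain ⟨g₀, hg₀⟩ := card_pos.1 hspos
        suffices hall : ∀ g ∈ s, g = g₀ by
          have hs1 : s.card = 1 := card_eq_one.2 ⟨g₀, eq_singleton_iff_unique_mem.2 ⟨hg₀, hall⟩⟩
          show Nat.card (pairStab a b : Subgroup G) = 2
          rw [Nat.card_eq_fintype_card]
          omega
        intro g hg
        by_contra hgg
        have hne1 : g * g₀ ≠ 1 := fun e => hgg (mul_right_cancel (e.trans (helem hd.le g₀).symm))
        obtain ⟨x, hx⟩ : ∃ x, x ∉ line (G := G) a b := by
          by_contra hc
          push Not at hc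
          have := card_le_card (show (univ : Finset Ω) ⊆ line (G := G) a b from fun x _ => hc x)
          rw [card_univ, ← ht', h] at this
          omega
        have hgx : g • x ≠ x := fun e => hx (hmove g (mem_erase.1 hg).1 ▸ mem_fx.2 e)
        have hg0x : g₀ • x ≠ x := fun e => hx (hmove g₀ (mem_erase.1 hg₀).1 ▸ mem_fx.2 e)
        have hsz2 := hsz3 (by omega) (Quotient.mk'' x)
        have hprod : (g * g₀) • x ≠ x := fun e => hx (hmove _ hne1 ▸ mem_fx.2 e)
        apply hprod
        -- both swap the orbit of `x`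
        have heq : g • x = g₀ • x := by
          by_contra hne'
          have h3 : ({x, g • x, g₀ • x} : Finset Ω).card = 3 := by
            rw [card_insert_of_notMem (by simp only [mem_insert, mem_singleton, not_or]; exact ⟨fun e => hgx e.symm, fun e => hg0x e.symm⟩),
              card_pair hne']
          have h' := add_sum_erase (univ : Finset Q) (fun q => sz q + if sz q = 1 then 1 else 0) (mem_univ (Quotient.mk'' x))
          have h'' := sum_le_sum (s := (univ : Finset Q).erase (Quotient.mk'' x)) fun q _ => hexc q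
          rw [sum_const, card_erase_of_mem (mem_univ _), card_univ, smul_eq_mul] at h''
          simp only [hexsum] at h'
          have h4 : 3 ≤ sz (Quotient.mk'' x) := by
            rw [← h3]
            refine card_le_card ?_
            intro y hy
            simp only [mem_insert, mem_singleton] at hy
            simp only [mem_filter, mem_univ, true_and]
            apply Quotient.eq''.2
            rw [orbitRel_apply]
            rcases hy with rfl | rfl | rfl
            · exact mem_orbit_self _
            · exact mem_orbit _ _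
            · exact mem_orbit _ _
          split_ifs at h' <;> omega
        rw [mul_smul, ← heq, ← mul_smul, helem hd.le g, one_smul]
      · have h3f : ∀ g ∈ s, 2 * f g + 3 ≤ n := by
          intro g hg
          by_contra hbig
          refine false_of_conj_commute h2 (hne g hg) g.2.1 fun u => hshare hd.le _ _ ?_
          have hc := hconj (g : G) u
          have h1 : 2 * (fx (g : G) : Finset Ω).card + 1 = n := by
            have h1' : 2 * (fx (g : G) : Finset Ω).card + 1 ≤ n := hf1' g hg
            change ¬ 2 * (fx (g : G) : Finset Ω).card + 3 ≤ n at hbig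
            omega
          have h4 := inter_bound h2 hab h h1 (h := u * g * u⁻¹) (by rw [hc]; exact h1)
          omega
        refine arith s f n 3 k (by norm_num) hscard (fun g hg => ⟨hfpos g, h3f g hg⟩) hspos ?_
        rw [hEsum]
        have : (2 * (o : ℤ) - n) = 3 := by omega
        rw [this]
        push_cast
        linarith

omit h2 in
theorem main (htr : IsPretransitive G Ω) (hn : 7 ≤ Fintype.card Ω) :
    ((∃ g : G, g ≠ 1 ∧ ∃ ω : Ω, g • ω = ω) ∧ (∀ g : G, g ≠ 1 → (fx g : Finset Ω).card ≤ 1) ∧
      Fintype.card G = Fintype.card Ω * (Fintype.card Ω - 1) ∧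
      Fintype.card Ω * (univ.filter fun g : G => (fx g : Finset Ω).card = 0).card = Fintype.card G) ∨
    2 * Fintype.card G ≤ Fintype.card Ω * (univ.filter fun g : G => (fx g : Finset Ω).card = 0).card := by
  classical
  set n := Fintype.card Ω with hn'
  set D := (univ.filter fun g : G => (fx g : Finset Ω).card = 0).card with hD
  obtain ⟨a, b, hab⟩ := Fintype.exists_pair_of_one_lt_card (show 1 < Fintype.card Ω by omega)
  have hfix : ∀ g : G, Fintype.card (fixedBy Ω g) = (fx g : Finset Ω).card := fun g => by
    rw [← Set.toFinset_card]; exact congrArg Finset.card (by ext x; simp)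
  have h1 : ∑ g : G, ((fx g : Finset Ω).card : ℚ) = Fintype.card G := by
    have h := MulAction.sum_card_fixedBy_eq_card_orbits_mul_card_group G Ω
    have hq : Fintype.card (orbitRel.Quotient G Ω) = 1 := by
      rw [Fintype.card_eq_one_iff]
      refine ⟨Quotient.mk'' a, fun q => Quotient.inductionOn' q fun x => ?_⟩
      exact Quotient.sound' (orbitRel_apply.2 (exists_smul_eq G a x))
    rw [hq, one_mul] at h
    rw [← h]
    push_cast
    simp [hfix]
  have hpt : ∀ g : G, (fx g : Finset Ω).card ≤ n := fun g => card_le_univ _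
  have hDq : (D : ℚ) = ∑ g : G, if (fx g : Finset Ω).card = 0 then (1 : ℚ) else 0 := by
    rw [sum_boole]
  set X : ℚ := ∑ g : G, if (fx g : Finset Ω).card = 0 then (0 : ℚ)
      else (((fx g : Finset Ω).card : ℚ) - 1) * ((n : ℚ) - (fx g : Finset Ω).card) with hX
  have hXnn : 0 ≤ X := sum_nonneg fun g _ => by
    split_ifs with h
    · exact le_rfl
    · refine mul_nonneg (sub_nonneg.2 ?_) (sub_nonneg.2 ?_)
      · exact_mod_cast Nat.one_le_iff_ne_zero.2 h
      · exact_mod_cast hpt g
  have hid : (n : ℚ) * D = ∑ g : G, ((fx g : Finset Ω).card : ℚ) * ((fx g : Finset Ω).card - 1) + X := by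
    have e : ∀ g : G, (n : ℚ) * (if (fx g : Finset Ω).card = 0 then (1 : ℚ) else 0) =
        ((fx g : Finset Ω).card : ℚ) * ((fx g : Finset Ω).card - 1) +
        (if (fx g : Finset Ω).card = 0 then (0 : ℚ)
          else (((fx g : Finset Ω).card : ℚ) - 1) * ((n : ℚ) - (fx g : Finset Ω).card)) +
        (-(n : ℚ) * (fx g : Finset Ω).card + n) := fun g => by
      split_ifs with h
      · rw [h]; push_cast; ring
      · ring
    rw [hDq, mul_sum, sum_congr rfl fun g _ => e g, sum_add_distrib, sum_add_distrib, sum_add_distrib, ← mul_sum, h1,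
      sum_const, card_univ, nsmul_eq_mul, hX]
    ring
  -- orbits of pairs
  by_cases h2' : ∀ x y : Ω, x ≠ y → ∃ g : G, g • a = x ∧ g • b = y
  swap
  · right
    push Not at h2'
    obtain ⟨c, d, hcd, hno⟩ := h2'
    have h := MulAction.sum_card_fixedBy_eq_card_orbits_mul_card_group G (Ω × Ω)
    have hr : 3 ≤ Fintype.card (orbitRel.Quotient G (Ω × Ω)) := by
      have hne1 : (Quotient.mk'' (a, a) : orbitRel.Quotient G (Ω × Ω)) ≠ Quotient.mk'' (a, b) := fun h => by
        obtain ⟨g, hg⟩ := orbitRel_apply.1 (Quotient.eq''.1 h)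
        exact hab (smul_left_cancel g ((congrArg Prod.fst hg).trans (congrArg Prod.snd hg).symm))
      have hne2 : (Quotient.mk'' (a, a) : orbitRel.Quotient G (Ω × Ω)) ≠ Quotient.mk'' (c, d) := fun h => by
        obtain ⟨g, hg⟩ := orbitRel_apply.1 (Quotient.eq''.1 h.symm)
        exact hcd ((congrArg Prod.fst hg).symm.trans (congrArg Prod.snd hg))
      have hne3 : (Quotient.mk'' (a, b) : orbitRel.Quotient G (Ω × Ω)) ≠ Quotient.mk'' (c, d) := fun h => by
        obtain ⟨g, hg⟩ := orbitRel_apply.1 (Quotient.eq''.1 h.symm)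
        exact hno g (congrArg Prod.fst hg) (congrArg Prod.snd hg)
      rw [← card_univ]
      calc 3 = ({Quotient.mk'' (a, a), Quotient.mk'' (a, b), Quotient.mk'' (c, d)} :
              Finset (orbitRel.Quotient G (Ω × Ω))).card := by
            rw [card_insert_of_notMem (by simp [hne1, hne2]), card_pair hne3]
        _ ≤ _ := card_le_univ _
    have h2sum : ∑ g : G, ((fx g : Finset Ω).card : ℚ) * (fx g : Finset Ω).card =
        Fintype.card (orbitRel.Quotient G (Ω × Ω)) * Fintype.card G := by
      rw [← Nat.cast_mul, ← h]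
      push_cast
      refine sum_congr rfl fun g _ => ?_
      rw [← Nat.cast_mul]
      congr 1
      rw [← card_product, ← Set.toFinset_card]
      exact congrArg Finset.card (by ext p; simp [Prod.ext_iff])
    have hr' : (3 : ℚ) ≤ Fintype.card (orbitRel.Quotient G (Ω × Ω)) := by exact_mod_cast hr
    have hG0 : (0 : ℚ) ≤ Fintype.card G := Nat.cast_nonneg _
    have : (2 * Fintype.card G : ℚ) ≤ n * D := by
      rw [hid]
      simp only [mul_sub, mul_one, sum_sub_distrib, h1, h2sum]
      nlinarith
    exact_mod_cast this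
  have h2 : ∀ x y z w : Ω, x ≠ y → z ≠ w → ∃ g : G, g • x = z ∧ g • y = w := by
    intro x y z w hxy hzw
    obtain ⟨g, g1, g2⟩ := h2' x y hxy
    obtain ⟨h, e1, e2⟩ := h2' z w hzw
    exact ⟨h * g⁻¹, by rw [mul_smul, ← g1, inv_smul_smul, e1], by rw [mul_smul, ← g2, inv_smul_smul, e2]⟩
  haveI : Fintype (pairStab a b : Subgroup G) := Fintype.ofFinite _
  have hG := card_group h2 hab
  rw [← hn', Nat.card_eq_fintype_card] at hG
  have hff : ∑ g : G, ((fx g : Finset Ω).card : ℚ) * ((fx g : Finset Ω).card - 1) = Fintype.card G := by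
    have h := sum_pairs h2 (fun _ => (1 : ℚ)) (fun _ _ => rfl) hab
    simp only [mul_one, sum_const, card_univ, nsmul_eq_mul] at h
    rw [h, hG]
    push_cast [Nat.cast_sub (show 1 ≤ n by omega)]
    ring
  rw [hff] at hid
  by_cases hk : Fintype.card (pairStab a b : Subgroup G) = 1
  · left
    have hone : ∀ g : G, g ≠ 1 → (fx g : Finset Ω).card ≤ 1 := by
      intro g hg
      by_contra hgt
      obtain ⟨x, hx, y, hy, hxy⟩ := one_lt_card.1 (not_le.1 hgt)
      have hc : Nat.card (pairStab x y : Subgroup G) = 1 := by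
        rw [← card_pairStab h2 hab hxy, Nat.card_eq_fintype_card, hk]
      have hb := Subgroup.card_eq_one.1 hc
      have hmem : g ∈ (pairStab x y : Subgroup G) := ⟨mem_fx.1 hx, mem_fx.1 hy⟩
      rw [hb, Subgroup.mem_bot] at hmem
      exact hg hmem
    have hX0 : X = 0 := sum_eq_zero fun g _ => by
      split_ifs with h
      · rfl
      · by_cases hg : g = 1
        · have : (fx g : Finset Ω).card = n := by
            rw [hg, show (fx (1 : G) : Finset Ω) = univ by ext x; simp, card_univ]
          rw [this, sub_self, mul_zero]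
        · have := hone g hg
          rw [show (fx g : Finset Ω).card = 1 by omega, Nat.cast_one, sub_self, zero_mul]
    refine ⟨?_, hone, by rw [hG, hk, mul_one], ?_⟩
    · obtain ⟨c, hc⟩ : ∃ c, c ∉ ({a, b} : Finset Ω) :=
        exists_mem_notMem_of_card_lt_card (t := univ) (card_le_two.trans_lt (by rw [card_univ]; omega)) |>.imp fun _ h => h.2
      simp only [mem_insert, mem_singleton, not_or] at hc
      obtain ⟨g, hg1, hg2⟩ := h2 a b a c hab (Ne.symm hc.1)
      refine ⟨g, fun e => hc.2 ?_, a, hg1⟩
      rw [← hg2, e, one_smul]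
    · rw [hX0, add_zero] at hid
      exact_mod_cast hid
  · right
    have hk2 : 2 ≤ Fintype.card (pairStab a b : Subgroup G) := by
      have : 0 < Fintype.card (pairStab a b : Subgroup G) := Fintype.card_pos
      omega
    have hkey := key h2 hn hab hk2
    have hXeq : X = ((n : ℚ) * (n - 1)) * ∑ g : (pairStab a b : Subgroup G),
        ((n : ℚ) - (fx (g : G) : Finset Ω).card) / (fx (g : G) : Finset Ω).card := by
      rw [hn', ← sum_pairs h2 (fun g : G => ((Fintype.card Ω : ℚ) - (fx g : Finset Ω).card) / (fx g : Finset Ω).card)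
        (fun u g => by simp only [fx_conj]) hab, hX]
      refine sum_congr rfl fun g _ => ?_
      split_ifs with h
      · simp [h]
      · have h' : ((fx g : Finset Ω).card : ℚ) ≠ 0 := Nat.cast_ne_zero.2 h
        field_simp
        ring
    have hGq : (Fintype.card G : ℚ) = (n : ℚ) * (n - 1) * Fintype.card (pairStab a b : Subgroup G) := by
      rw [hG]; push_cast [Nat.cast_sub (show 1 ≤ n by omega)]; ring
    have hnn : (0 : ℚ) ≤ (n : ℚ) * (n - 1) := mul_nonneg (Nat.cast_nonneg n) (sub_nonneg.2 (by exact_mod_cast (show 1 ≤ n by omega)))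
    have : (2 * Fintype.card G : ℚ) ≤ n * D := by
      rw [hid, hXeq]
      have := mul_le_mul_of_nonneg_left hkey hnn
      linarith
    exact_mod_cast this

end CfsgLib.DerangeTwo
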